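import Cfsg.Agent.Linear.PSL2Spectrum
import Mathlib.FieldTheory.Finite.GaloisField
import Mathlib.NumberTheory.LegendreSymbol.QuadraticChar.Basic
import Mathlib.GroupTheory.SemidirectProduct
import Mathlib.GroupTheory.PGroup

/-! A group with a non-trivial `3`-core and the truncated spectrum of `2 × L₂(3 ^ α)`. -/

set_option autoImplicit false
set_option maxHeartbeats 800000

namespace Cfsg.Agent.KnownB.TwistTensor

open Matrix Cfsg.Agent.Linear Cfsg.Agent.Linear.PSL2Classes

variable (F : Type) [Field F] [CharP F 3]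

local notation "SL" => Matrix.SpecialLinearGroup (Fin 2) F
local notation "M2" => Matrix (Fin 2) (Fin 2) F

/-- The twisted copy. -/
def tw : SL →* SL :=
  haveI : Fact (Nat.Prime 3) := ⟨Nat.prime_three⟩
  Matrix.SpecialLinearGroup.map (frobenius F 3)

/-- The linear action on the tensor module. -/
def lin (x : ℤˣ × SL) (X : M2) : M2 := (x.1 : ℤ) • (x.2.1 * X * (tw F x.2).1.transpose)

theorem lin_mul (x y : ℤˣ × SL) (X : M2) : lin F (x * y) X = lin F x (lin F y X) := by
  simp only [lin, Prod.fst_mul, Prod.snd_mul, map_mul, Matrix.SpecialLinearGroup.coe_mul,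
    Matrix.transpose_mul, Units.val_mul, Matrix.mul_smul, Matrix.smul_mul, smul_smul, Matrix.mul_assoc]

theorem lin_one (X : M2) : lin F 1 X = X := by simp [lin]

/-- The action. -/
def act : ℤˣ × SL →* MulAut (Multiplicative M2) where
  toFun x :=
    { toFun := fun X => Multiplicative.ofAdd (lin F x (Multiplicative.toAdd X))
      invFun := fun X => Multiplicative.ofAdd (lin F x⁻¹ (Multiplicative.toAdd X))
      left_inv := fun X => by simp [← lin_mul, lin_one]
      right_inv := fun X => by simp [← lin_mul, lin_one]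
      map_mul' := fun X Y => by
        simp [lin, Matrix.mul_add, Matrix.add_mul, smul_add] }
  map_one' := MulEquiv.ext fun X => by simp [lin_one]
  map_mul' x y := MulEquiv.ext fun X => by simp [lin_mul]

/-- The group. -/
abbrev Grp : Type := Multiplicative M2 ⋊[(act F).range.subtype] (act F).range

/-- The element of the complement given by a sign and a matrix. -/
def cpl (x : ℤˣ × SL) : (act F).range := ⟨act F x, x, rfl⟩

theorem cpl_mul (x y : ℤˣ × SL) : cpl F (x * y) = cpl F x * cpl F y := Subtype.ext (map_mul _ _ _)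

theorem cpl_one : cpl F 1 = 1 := Subtype.ext (map_one _)

theorem cpl_pow (x : ℤˣ × SL) (k : ℕ) : cpl F x ^ k = cpl F (x ^ k) :=
  Subtype.ext (by rw [SubmonoidClass.coe_pow]; exact (map_pow (act F) x k).symm)

theorem cpl_apply (x : ℤˣ × SL) (X : Multiplicative M2) :
    (act F).range.subtype (cpl F x) X = Multiplicative.ofAdd (lin F x (Multiplicative.toAdd X)) := rfl

theorem cube_eq_one (X : Multiplicative M2) : X ^ 3 = 1 := by
  refine Multiplicative.toAdd.injective ?_
  rw [toAdd_pow, toAdd_one]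
  ext i j
  rw [Matrix.smul_apply, Matrix.zero_apply, nsmul_eq_mul, CharP.cast_eq_zero F 3, zero_mul]

theorem frob_neg_one : tw F (-1) = -1 := by
  refine Subtype.ext ?_
  ext i j
  show ((-1 : M2).map (frobenius F 3)) i j = (-1 : M2) i j
  fin_cases i <;> fin_cases j <;> simp

theorem cpl_eq_one {e : ℤˣ} {g : SL} : cpl F (e, g) = 1 ↔ e = 1 ∧ (g = 1 ∨ g = -1) := by
  constructor
  · intro h
    have hX : ∀ X : M2, lin F (e, g) X = X := fun X =>
      Multiplicative.ofAdd.injective (DFunLike.congr_fun (congrArg Subtype.val h) (Multiplicative.ofAdd X))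
    have h1 : ((e : ℤ) • g.1) * (tw F g).1.transpose = 1 := by
      have := hX 1; rwa [lin, Matrix.mul_one, ← Matrix.smul_mul] at this
    have hcomm : ∀ X : M2, ((e : ℤ) • g.1) * X = X * ((e : ℤ) • g.1) := fun X => by
      conv_rhs => rw [← hX X]
      rw [lin, ← Matrix.smul_mul, ← Matrix.smul_mul, Matrix.mul_assoc, mul_eq_one_comm.mp h1,
        Matrix.mul_one]
    have hsq : (e : ℤ) * e = 1 := by rw [← Units.val_mul, Int.units_mul_self, Units.val_one]
    have hg : ∀ X : M2, g.1 * X = X * g.1 := fun X => by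
      have := congrArg ((e : ℤ) • ·) (hcomm X)
      simpa only [Matrix.smul_mul, Matrix.mul_smul, smul_smul, hsq, one_smul] using this
    have hgc : g ∈ Subgroup.center SL := Subgroup.mem_center_iff.mpr fun y => Subtype.ext (hg y.1).symm
    have hpm : g = 1 ∨ g = -1 := by
      rw [← toPSL_eq_one_iff]
      exact (QuotientGroup.eq_one_iff g).mpr hgc
    refine ⟨?_, hpm⟩
    rcases Int.units_eq_one_or e with he | he
    · exact he
    · exfalso
      have h3 : (2 : F) = 0 := by
        have e0 := congrFun (congrFun h1 0) 0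
        rcases hpm with rfl | rfl
        · simp [he] at e0
          linear_combination -e0
        · simp [he, frob_neg_one] at e0
          linear_combination -e0
      have : ((2 : ℕ) : F) = 0 := h3
      rw [CharP.cast_eq_zero_iff F 3] at this
      norm_num at this
  · rintro ⟨rfl, rfl | rfl⟩
    · exact cpl_one F
    · refine Subtype.ext (MulEquiv.ext fun X => ?_)
      show Multiplicative.ofAdd (lin F (1, -1) (Multiplicative.toAdd X)) = X
      simp [lin, frob_neg_one]

/-- A power of an element whose complement part fixes nothing. -/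
theorem pow_eq_one_of_fixed_free (h : Grp F) {k : ℕ} (hk : h.right ^ k = 1)
    (hfree : ∀ X, (act F).range.subtype h.right X = X → X = 1) : h ^ k = 1 := by
  have hr : (h ^ k).right = 1 := by
    show SemidirectProduct.rightHom (h ^ k) = 1
    rw [map_pow]; exact hk
  refine SemidirectProduct.ext ?_ hr
  refine hfree _ ?_
  have e := congrArg SemidirectProduct.left ((Commute.self_pow h k).eq)
  simp only [SemidirectProduct.mul_left, hr, map_one, MulAut.one_apply] at e
  rw [mul_comm (h ^ k).left] at e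
  exact mul_left_cancel e

theorem pow_three_mul (h : Grp F) {k : ℕ} (hk : h.right ^ k = 1) : h ^ (k * 3) = 1 := by
  have hr : (h ^ k).right = 1 := by
    show SemidirectProduct.rightHom (h ^ k) = 1
    rw [map_pow]; exact hk
  rw [pow_mul, show h ^ k = SemidirectProduct.inl (h ^ k).left from SemidirectProduct.ext rfl hr,
    ← map_pow, cube_eq_one, map_one]

theorem sq_eq (g : SL) : g.1 * g.1 = tr g • g.1 - 1 := by
  have hd := g.2
  rw [Matrix.det_fin_two] at hd
  ext i j
  fin_cases i <;> fin_cases j <;>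
    simp [Matrix.mul_apply, Fin.sum_univ_two, tr, Matrix.trace_fin_two] <;>
      first | ring1 | linear_combination -hd | linear_combination hd

theorem cube_eq (g : SL) : g.1 * g.1 * g.1 = (tr g ^ 2 - 1) • g.1 - tr g • (1 : M2) := by
  rw [sq_eq, Matrix.sub_mul, Matrix.smul_mul, sq_eq, Matrix.one_mul]
  module

theorem fixed_free [Fintype F] (h4 : Fintype.card F % 4 = 3) {e : ℤˣ} {g : SL} (h0 : tr g ≠ 0)
    (h1 : tr g ^ 2 ≠ 1) (X : Multiplicative M2)
    (hX : (act F).range.subtype (cpl F (e, g)) X = X) : X = 1 := by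
  set Z : M2 := Multiplicative.toAdd X with hZ
  have hfix : lin F (e, g) Z = Z := Multiplicative.ofAdd.injective hX
  set J : M2 := !![0, 1; -1, 0] with hJ
  set g' : SL := tw F g with hg'
  have hJg : g'.1.transpose * J * g'.1 = J := by
    have hd := g'.2
    rw [Matrix.det_fin_two] at hd
    ext i j
    fin_cases i <;> fin_cases j <;>
      simp [hJ, Matrix.mul_apply, Fin.sum_univ_two, Matrix.transpose_apply] <;>
      first | ring1 | linear_combination hd | linear_combination -hd
  let c : F := ((e : ℤ) : F)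
  have hc : c * c = 1 := by
    show ((e : ℤ) : F) * ((e : ℤ) : F) = 1
    rw [← Int.cast_mul, ← Units.val_mul, Int.units_mul_self, Units.val_one, Int.cast_one]
  have hfix' : c • (g.1 * Z * g'.1.transpose) = Z := by
    show ((e : ℤ) : F) • _ = _
    rw [Int.cast_smul_eq_zsmul]
    exact hfix
  set Y : M2 := Z * J with hY
  have hYg : Y * g'.1 = c • (g.1 * Y) := by
    conv_lhs => rw [hY, ← hfix']
    rw [Matrix.smul_mul, Matrix.smul_mul, Matrix.mul_assoc (g.1 * Z), Matrix.mul_assoc (g.1 * Z), hJg,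
      Matrix.mul_assoc]
  have hsq : Y * (g'.1 * g'.1) = g.1 * g.1 * Y := by
    rw [← Matrix.mul_assoc, hYg, Matrix.smul_mul, Matrix.mul_assoc g.1, hYg, Matrix.mul_smul, smul_smul,
      hc, one_smul, Matrix.mul_assoc]
  rw [sq_eq, sq_eq, Matrix.mul_sub, Matrix.sub_mul, Matrix.mul_smul, Matrix.smul_mul, Matrix.mul_one,
    Matrix.one_mul, hYg, smul_smul, sub_left_inj] at hsq
  have htr : tr g' = tr g ^ 3 := by
    haveI : Fact (Nat.Prime 3) := ⟨Nat.prime_three⟩
    have hval : g'.1 = g.1.map (frobenius F 3) := rfl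
    simp [tr, hval, Matrix.trace_fin_two, frobenius_def, add_pow_char]
  have hz : (tr g' * c - tr g) • (g.1 * Y) = 0 := by rw [sub_smul, hsq, sub_self]
  rcases smul_eq_zero.mp hz with hs | hgy
  · exfalso
    rw [htr] at hs
    have h2 : tr g * (tr g ^ 2 * c - 1) = 0 := by linear_combination hs
    have h3 := (mul_eq_zero.mp h2).resolve_left h0
    rcases mul_self_eq_one_iff.mp hc with hc1 | hc1
    · exact h1 (by rw [hc1] at h3; linear_combination h3)
    · have hsq1 : IsSquare (-1 : F) := ⟨tr g, by rw [hc1] at h3; linear_combination h3⟩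
      exact (FiniteField.isSquare_neg_one_iff.mp hsq1) h4
  · have hY0 : Y = 0 := by
      have := congrArg (((g⁻¹ : SL)).1 * ·) hgy
      simp only [Matrix.mul_zero] at this
      rwa [← Matrix.mul_assoc, ← Matrix.SpecialLinearGroup.coe_mul, inv_mul_cancel,
        Matrix.SpecialLinearGroup.coe_one, Matrix.one_mul] at this
    have hJ2 : J * J = -1 := by
      ext i j; fin_cases i <;> fin_cases j <;> simp [hJ, Matrix.mul_apply, Fin.sum_univ_two]
    have hZ0 : Z = 0 := by
      have := congrArg (· * J) hY0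
      simpa [hY, Matrix.mul_assoc, hJ2] using this
    exact Multiplicative.toAdd.injective hZ0

theorem fixed_free_neg_unipotent {g : SL} (hg : cpl F ((1 : ℤˣ), g) ^ 3 = 1) (X : Multiplicative M2)
    (hX : (act F).range.subtype (cpl F (-1, g)) X = X) : X = 1 := by
  have hn : cpl F (-1, g) ^ 3 = cpl F (-1, 1) := by
    rw [cpl_pow, Prod.pow_mk] at hg ⊢
    rw [show (-1 : ℤˣ) ^ 3 = -1 by decide, show ((-1 : ℤˣ), g ^ 3) = (-1, 1) * (1, g ^ 3) by simp,
      cpl_mul, (cpl_eq_one F).mpr ⟨rfl, ((cpl_eq_one F).mp hg).2⟩, mul_one]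
  have h3 : (act F).range.subtype (cpl F (-1, g) ^ 3) X = X := by
    rw [map_pow, pow_succ, pow_succ, pow_one, MulAut.mul_apply, MulAut.mul_apply, hX, hX, hX]
  rw [hn, cpl_apply] at h3
  set Z : M2 := Multiplicative.toAdd X with hZ
  have hneg : lin F (-1, 1) Z = Z := Multiplicative.ofAdd.injective h3
  have h2 : ((2 : ℕ) : F) ≠ 0 := fun h => by
    rw [CharP.cast_eq_zero_iff F 3] at h; norm_num at h
  refine Multiplicative.toAdd.injective ?_
  ext i j
  have e := congrFun (congrFun hneg i) j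
  simp [lin] at e
  exact (mul_eq_zero.mp (show ((2 : ℕ) : F) * Z i j = 0 by push_cast; linear_combination -e)).resolve_left h2

theorem cpl_pow_of_psl [Fintype F] (e : ℤˣ) (g : SL) {k : ℕ} (hg : toPSL g ^ k = 1) (he : e ^ k = 1) :
    cpl F (e, g) ^ k = 1 := by
  rw [cpl_pow, Prod.pow_mk, cpl_eq_one]
  exact ⟨he, pow_eq_one_or_neg hg⟩

theorem le_pow {α : ℕ} (hα : 3 ≤ α) : 27 ≤ 3 ^ α :=
  le_trans (by norm_num) (Nat.pow_le_pow_right (by norm_num) hα)

theorem mod_four {α : ℕ} (hodd : Odd α) : 3 ^ α % 4 = 3 := by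
  obtain ⟨c, rfl⟩ := hodd
  rw [pow_succ, pow_mul, Nat.mul_mod, Nat.pow_mod]
  norm_num

/-- Every element order divides one of the four numbers. -/
theorem orderOf_dvd_four [Fintype F] {α : ℕ} (hodd : Odd α) (hF : Fintype.card F = 3 ^ α) (h : Grp F) :
    orderOf h ∣ 6 ∨ orderOf h ∣ 9 ∨ orderOf h ∣ 3 ^ α - 1 ∨ orderOf h ∣ (3 ^ α + 1) / 2 := by
  haveI : Fact (Nat.Prime 3) := ⟨Nat.prime_three⟩
  have h4 := mod_four hodd
  obtain ⟨⟨e, g⟩, hx⟩ : ∃ x, act F x = h.right.1 := h.right.2
  have hr : h.right = cpl F (e, g) := Subtype.ext hx.symm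
  have he2 : e ^ 2 = 1 := by rw [sq]; exact Int.units_mul_self e
  by_cases h0 : tr g = 0
  · refine Or.inl (orderOf_dvd_of_pow_eq_one (pow_three_mul F h (k := 2) ?_))
    rw [hr, cpl_pow, Prod.pow_mk, cpl_eq_one]
    refine ⟨he2, Or.inr (Subtype.ext ?_)⟩
    rw [sq, Matrix.SpecialLinearGroup.coe_mul, sq_eq, h0, zero_smul, zero_sub]
    rfl
  by_cases h1 : tr g ^ 2 = 1
  · have hg3 : cpl F ((1 : ℤˣ), g) ^ 3 = 1 := by
      rw [cpl_pow, Prod.pow_mk, cpl_eq_one]
      refine ⟨one_pow 3, ?_⟩
      have h3 : (g ^ 3).1 = -(tr g • (1 : M2)) := by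
        rw [pow_succ, sq, Matrix.SpecialLinearGroup.coe_mul, Matrix.SpecialLinearGroup.coe_mul, cube_eq,
          h1, sub_self, zero_smul, zero_sub]
      rcases sq_eq_one_iff.mp h1 with ht | ht
      · exact Or.inr (Subtype.ext (by rw [h3, ht, one_smul]; rfl))
      · exact Or.inl (Subtype.ext (by rw [h3, ht, neg_one_smul, neg_neg]; rfl))
    rcases Int.units_eq_one_or e with he | he <;> subst he
    · exact Or.inr (Or.inl (orderOf_dvd_of_pow_eq_one (pow_three_mul F h (k := 3) (by rw [hr]; exact hg3))))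
    · refine Or.inl (orderOf_dvd_of_pow_eq_one (pow_eq_one_of_fixed_free F h (k := 6) ?_ fun X hX => ?_))
      · rw [hr, show (6 : ℕ) = 3 * 2 from rfl, pow_mul]
        rw [show ((-1 : ℤˣ), g) = (-1, 1) * (1, g) by simp, cpl_mul]
        have hc : Commute (cpl F (-1, 1)) (cpl F ((1 : ℤˣ), g)) := by
          show cpl F (-1, 1) * cpl F (1, g) = cpl F (1, g) * cpl F (-1, 1)
          rw [← cpl_mul, ← cpl_mul]; simp
        rw [hc.mul_pow, hg3, mul_one, ← pow_mul, cpl_pow, Prod.pow_mk, cpl_eq_one]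
        exact ⟨by decide, Or.inl (one_pow _)⟩
      · exact fixed_free_neg_unipotent F hg3 X (hr ▸ hX)
  have hfree : ∀ X, (act F).range.subtype h.right X = X → X = 1 := fun X hX =>
    fixed_free F (by rw [hF]; exact h4) h0 h1 X (hr ▸ hX)
  have hgcd : Nat.gcd 2 (Fintype.card F - 1) = 2 := Nat.gcd_eq_left (by rw [hF]; omega)
  rcases PSL2Classes.orderOf_dvd 3 (toPSL g) with hd | hd | hd
  · exfalso
    have hp := pow_eq_one_or_neg (orderOf_dvd_iff_pow_eq_one.mp hd)
    have h3 : ∃ r : F, (tr g ^ 2 - 1) • g.1 = r • (1 : M2) := by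
      have hc := cube_eq F g
      rcases hp with hp | hp
      · refine ⟨1 + tr g, ?_⟩
        rw [← Matrix.SpecialLinearGroup.coe_mul, ← Matrix.SpecialLinearGroup.coe_mul, ← sq, ← pow_succ, hp,
          Matrix.SpecialLinearGroup.coe_one] at hc
        linear_combination (norm := module) -hc
      · refine ⟨-1 + tr g, ?_⟩
        rw [← Matrix.SpecialLinearGroup.coe_mul, ← Matrix.SpecialLinearGroup.coe_mul, ← sq, ← pow_succ, hp] at hc
        rw [show ((-1 : SL)).1 = -(1 : M2) from rfl] at hc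
        linear_combination (norm := module) -hc
    obtain ⟨r, hr3⟩ := h3
    have hne : tr g ^ 2 - 1 ≠ 0 := sub_ne_zero.mpr h1
    have e01 := congrFun (congrFun hr3 0) 1
    have e10 := congrFun (congrFun hr3 1) 0
    have e00 := congrFun (congrFun hr3 0) 0
    have e11 := congrFun (congrFun hr3 1) 1
    simp [hne] at e01 e10 e00 e11
    have hd' := g.2
    rw [Matrix.det_fin_two, e01, e10, mul_zero, sub_zero] at hd'
    have heq : g.1 0 0 = g.1 1 1 := mul_left_cancel₀ hne (e00.trans e11.symm)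
    have h30 : (3 : F) = 0 := CharP.cast_eq_zero F 3
    refine h1 ?_
    rw [tr, Matrix.trace_fin_two, ← heq]
    rw [← heq] at hd'
    linear_combination 4 * hd' + h30
  · refine Or.inr (Or.inr (Or.inl (orderOf_dvd_of_pow_eq_one (pow_eq_one_of_fixed_free F h ?_ hfree))))
    rw [hr]
    rw [hgcd, hF] at hd
    refine cpl_pow_of_psl F e g (orderOf_dvd_iff_pow_eq_one.mp (hd.trans (Nat.div_dvd_of_dvd ?_))) ?_
    · omega
    · rw [show 3 ^ α - 1 = 2 * ((3 ^ α - 1) / 2) by omega, pow_mul, he2, one_pow]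
  · refine Or.inr (Or.inr (Or.inr (orderOf_dvd_of_pow_eq_one (pow_eq_one_of_fixed_free F h ?_ hfree))))
    rw [hr]
    rw [hgcd, hF] at hd
    refine cpl_pow_of_psl F e g (orderOf_dvd_iff_pow_eq_one.mp hd) ?_
    rw [show (3 ^ α + 1) / 2 = 2 * ((3 ^ α + 1) / 4) by omega, pow_mul, he2, one_pow]

theorem dvd_of_cpl_pow [Fintype F] {e : ℤˣ} {g : SL} {k : ℕ}
    (hk : (SemidirectProduct.inr (cpl F (e, g)) : Grp F) ^ k = 1) :
    e ^ k = 1 ∧ toPSL g ^ k = 1 := by
  rw [← map_pow, ← map_one (SemidirectProduct.inr : (act F).range →* Grp F)] at hk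
  have h := SemidirectProduct.inr_injective hk
  rw [cpl_pow, Prod.pow_mk, cpl_eq_one] at h
  exact ⟨h.1, by rw [← map_pow, toPSL_eq_one_iff]; exact h.2⟩

theorem exists_truncated (α : ℕ) (hα : 3 ≤ α) (hodd : Odd α) :
    ∃ (H : Type) (_ : Group H) (_ : Fintype H), (∃ P : Subgroup H, P.Normal ∧ P ≠ ⊥ ∧ IsPGroup 3 ↥P) ∧
      {n : ℕ | n ∈ Set.range (orderOf : H → ℕ) ∧ ∀ m ∈ Set.range (orderOf : H → ℕ), n ∣ m → m = n} =
        ({6, 9, 3 ^ α - 1, (3 ^ α + 1) / 2} : Set ℕ) := by
  classical
  haveI : Fact (Nat.Prime 3) := ⟨Nat.prime_three⟩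
  let K := GaloisField 3 α
  haveI : Fintype K := Fintype.ofFinite K
  have hF : Fintype.card K = 3 ^ α := by
    rw [← Nat.card_eq_fintype_card]; exact GaloisField.card 3 α (by omega)
  haveI : Finite (MulAut (Multiplicative (Matrix (Fin 2) (Fin 2) K))) :=
    Finite.of_injective (fun f => (f : Multiplicative (Matrix (Fin 2) (Fin 2) K) → _)) DFunLike.coe_injective
  haveI : Finite (Grp K) := Finite.of_equiv _ SemidirectProduct.equivProd.symm
  have hq := le_pow hα
  have h4 := mod_four hodd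
  have h3q : 3 ∣ 3 ^ α := dvd_pow_self 3 (by omega)
  set q := 3 ^ α with hqdef
  have hgcd : Nat.gcd 2 (Fintype.card K - 1) = 2 := Nat.gcd_eq_left (by rw [hF]; omega)
  have hd4 : ∀ h : Grp K, orderOf h ∣ 6 ∨ orderOf h ∣ 9 ∨ orderOf h ∣ q - 1 ∨ orderOf h ∣ (q + 1) / 2 :=
    orderOf_dvd_four K hodd hF
  -- the four numbers do not divide one another
  have n1 : ¬ 6 ∣ q - 1 := fun h => by have := Dvd.dvd.trans (show 3 ∣ 6 by norm_num) h; omega
  have n2 : ¬ 6 ∣ (q + 1) / 2 := fun h => by
    have := Dvd.dvd.trans (show 3 ∣ 6 by norm_num) h; omega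
  have n3 : ¬ 9 ∣ q - 1 := fun h => by have := Dvd.dvd.trans (show 3 ∣ 9 by norm_num) h; omega
  have n4 : ¬ 9 ∣ (q + 1) / 2 := fun h => by
    have := Dvd.dvd.trans (show 3 ∣ 9 by norm_num) h; omega
  have n5 : ¬ q - 1 ∣ (q + 1) / 2 := fun h => by have := Nat.le_of_dvd (by omega) h; omega
  have n6 : ¬ (q + 1) / 2 ∣ q - 1 := fun h => by
    have h' : (q + 1) / 2 ∣ (q - 1) + 2 := ⟨2, by omega⟩
    have := Nat.le_of_dvd two_pos ((Nat.dvd_add_right h).mp h')
    omega
  have n7 : ∀ M, 9 < M → ¬ M ∣ 6 ∧ ¬ M ∣ 9 := fun M hM =>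
    ⟨fun h => by have := Nat.le_of_dvd (by norm_num) h; omega,
      fun h => by have := Nat.le_of_dvd (by norm_num) h; omega⟩
  -- the four numbers are attained
  let u : Matrix.SpecialLinearGroup (Fin 2) K := ⟨!![1, 1; 0, 1], by simp [Matrix.det_fin_two]⟩
  have hu3 : toPSL u ^ 3 = 1 := by
    rw [← map_pow, toPSL_eq_one_iff]
    refine Or.inl (Subtype.ext ?_)
    rw [pow_succ, sq, Matrix.SpecialLinearGroup.coe_mul, Matrix.SpecialLinearGroup.coe_mul]
    have h30 : (3 : K) = 0 := CharP.cast_eq_zero K 3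
    ext i j
    fin_cases i <;> fin_cases j <;> simp [u, Matrix.mul_apply, Fin.sum_univ_two]
    linear_combination h30
  have hu1 : toPSL u ≠ 1 := fun h => by
    rcases toPSL_eq_one_iff.mp h with e | e <;>
      simpa [u] using congrArg (fun x : Matrix.SpecialLinearGroup (Fin 2) K => x.1 0 1) e
  have a6 : ∃ h : Grp K, orderOf h = 6 := by
    refine ⟨SemidirectProduct.inr (cpl K (-1, u)), ?_⟩
    obtain ⟨he, hg⟩ := dvd_of_cpl_pow K (pow_orderOf_eq_one (SemidirectProduct.inr (cpl K (-1, u)) : Grp K))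
    have hm1 : orderOf (-1 : ℤˣ) = 2 := orderOf_eq_prime (by decide) (by decide)
    have h3 := orderOf_dvd_of_pow_eq_one hg
    rw [orderOf_eq_prime hu3 hu1] at h3
    have h2 := orderOf_dvd_of_pow_eq_one he
    rw [hm1] at h2
    have h6 := Nat.Coprime.mul_dvd_of_dvd_of_dvd (show Nat.Coprime 2 3 by norm_num) h2 h3
    rcases hd4 (SemidirectProduct.inr (cpl K (-1, u))) with h | h | h | h
    · exact Nat.dvd_antisymm h h6
    · exact absurd (h6.trans h) (by norm_num)
    · exact absurd (h6.trans h) n1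
    · exact absurd (h6.trans h) n2
  have a9 : ∃ h : Grp K, orderOf h = 9 := by
    let v : Grp K := ⟨Multiplicative.ofAdd !![0, 0; 0, 1], cpl K (1, u)⟩
    refine ⟨v, ?_⟩
    have hr : v.right ^ 3 = 1 := cpl_pow_of_psl K 1 u hu3 (one_pow 3)
    refine orderOf_eq_prime_pow (p := 3) (n := 1) (fun h => ?_) (by simpa using pow_three_mul K v hr)
    rw [pow_one] at h
    have e := congrArg (fun x : Grp K => Multiplicative.toAdd x.left 0 0) h
    simp only [pow_succ, pow_zero, one_mul, SemidirectProduct.mul_left, SemidirectProduct.mul_right,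
      map_mul, MulAut.mul_apply, toAdd_mul, Matrix.add_apply, v, cpl_apply] at e
    have hu' : (tw K u).1 = u.1 := by
      ext i j
      show (u.1.map (frobenius K 3)) i j = u.1 i j
      fin_cases i <;> fin_cases j <;> simp [u]
    simp only [lin, hu'] at e
    simp [u, Matrix.mul_apply, Fin.sum_univ_two, Matrix.vecMul, dotProduct] at e
    have h30 : ((3 : ℕ) : K) = 0 := CharP.cast_eq_zero K 3
    have h20 : ((2 : ℕ) : K) ≠ 0 := fun h => by rw [CharP.cast_eq_zero_iff K 3] at h; norm_num at h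
    push_cast at h30 h20
    apply h20
    linear_combination e - h30
  have aM : ∀ (plus : Bool) (e : ℤˣ) (M : ℕ), 9 < M →
      (∀ o, (if plus then q + 1 else q - 1) / 2 ∣ o → e ^ o = 1 → M ∣ o) →
      (∀ o, M ∣ o → o ∣ q - 1 ∨ o ∣ (q + 1) / 2 → o = M) → ∃ h : Grp K, orderOf h = M := by
    intro plus e M hM hdv huniq
    obtain ⟨x, hx⟩ := exists_torus_order (F := K) plus
    obtain ⟨g, rfl⟩ := toPSL_surjective x
    rw [hgcd, hF] at hx
    refine ⟨SemidirectProduct.inr (cpl K (e, g)), ?_⟩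
    obtain ⟨he, hg⟩ := dvd_of_cpl_pow K (pow_orderOf_eq_one (SemidirectProduct.inr (cpl K (e, g)) : Grp K))
    have hMo := hdv _ (hx.trans (orderOf_dvd_of_pow_eq_one hg)) he
    rcases hd4 (SemidirectProduct.inr (cpl K (e, g))) with h | h | h | h
    · exact absurd (hMo.trans h) (n7 M hM).1
    · exact absurd (hMo.trans h) (n7 M hM).2
    · exact huniq _ hMo (Or.inl h)
    · exact huniq _ hMo (Or.inr h)
  have am : ∃ h : Grp K, orderOf h = q - 1 := aM false (-1) (q - 1) (by omega)
    (fun o ho he => by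
      have h2 := orderOf_dvd_of_pow_eq_one he
      rw [show orderOf (-1 : ℤˣ) = 2 from orderOf_eq_prime (by decide) (by decide)] at h2
      have hcop : Nat.Coprime 2 ((q - 1) / 2) := Nat.coprime_two_left.mpr (Nat.odd_iff.mpr (by omega))
      have := Nat.Coprime.mul_dvd_of_dvd_of_dvd hcop h2 (by simpa using ho)
      rwa [show 2 * ((q - 1) / 2) = q - 1 by omega] at this)
    (fun o ho h => h.elim (fun h => Nat.dvd_antisymm h ho) fun h => absurd (ho.trans h) n5)
  have ap : ∃ h : Grp K, orderOf h = (q + 1) / 2 := aM true 1 ((q + 1) / 2) (by omega)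
    (fun o ho _ => by simpa using ho)
    (fun o ho h => h.elim (fun h => absurd (ho.trans h) n6) fun h => Nat.dvd_antisymm h ho)
  refine ⟨Grp K, inferInstance, Fintype.ofFinite _, ⟨(SemidirectProduct.inl : _ →* Grp K).range, ?_, ?_, ?_⟩, ?_⟩
  · rw [SemidirectProduct.range_inl_eq_ker_rightHom]
    infer_instance
  · intro h
    have h1 : (SemidirectProduct.inl (Multiplicative.ofAdd (1 : Matrix (Fin 2) (Fin 2) K)) : Grp K) = 1 := by
      rw [← Subgroup.mem_bot, ← h]; exact ⟨_, rfl⟩
    rw [← map_one (SemidirectProduct.inl : Multiplicative (Matrix (Fin 2) (Fin 2) K) →* Grp K)] at h1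
    exact one_ne_zero (congrArg Multiplicative.toAdd (SemidirectProduct.inl_injective h1))
  · rintro ⟨_, X, rfl⟩
    exact ⟨1, Subtype.ext (by rw [pow_one, SubmonoidClass.coe_pow, ← map_pow, cube_eq_one, map_one]; rfl)⟩
  · ext n
    simp only [Set.mem_setOf_eq, Set.mem_range, Set.mem_insert_iff, Set.mem_singleton_iff]
    constructor
    · rintro ⟨⟨h, rfl⟩, hmax⟩
      rcases hd4 h with hd | hd | hd | hd
      · exact Or.inl (hmax 6 a6 hd).symm
      · exact Or.inr (Or.inl (hmax 9 a9 hd).symm)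
      · exact Or.inr (Or.inr (Or.inl (hmax _ am hd).symm))
      · exact Or.inr (Or.inr (Or.inr (hmax _ ap hd).symm))
    · intro hn
      rcases hn with rfl | rfl | rfl | rfl
      · refine ⟨a6, ?_⟩
        rintro _ ⟨h, rfl⟩ hd
        rcases hd4 h with h' | h' | h' | h'
        · exact Nat.dvd_antisymm h' hd
        · exact absurd (hd.trans h') (by norm_num)
        · exact absurd (hd.trans h') n1
        · exact absurd (hd.trans h') n2
      · refine ⟨a9, ?_⟩
        rintro _ ⟨h, rfl⟩ hd
        rcases hd4 h with h' | h' | h' | h'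
        · exact absurd (hd.trans h') (by norm_num)
        · exact Nat.dvd_antisymm h' hd
        · exact absurd (hd.trans h') n3
        · exact absurd (hd.trans h') n4
      · refine ⟨am, ?_⟩
        rintro _ ⟨h, rfl⟩ hd
        rcases hd4 h with h' | h' | h' | h'
        · exact absurd (hd.trans h') (n7 _ (by omega)).1
        · exact absurd (hd.trans h') (n7 _ (by omega)).2
        · exact Nat.dvd_antisymm h' hd
        · exact absurd (hd.trans h') n5
      · refine ⟨ap, ?_⟩
        rintro _ ⟨h, rfl⟩ hd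
        rcases hd4 h with h' | h' | h' | h'
        · exact absurd (hd.trans h') (n7 _ (by omega)).1
        · exact absurd (hd.trans h') (n7 _ (by omega)).2
        · exact absurd (hd.trans h') n6
        · exact Nat.dvd_antisymm h' hd

end Cfsg.Agent.KnownB.TwistTensor
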